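import Cfsg.Agent.CentrallyLarge.Basic
import Cfsg.Agent.PGroup.Frattini
import Cfsg.Agent.S3007
import Cfsg.Agent.Eq.Def_PLocal

/-!
Minimal centrally large subgroups of a finite `p`-group `P` with respect to a subgroup `O` and a normal
subgroup `V` of `O` centralised by `O`, when no subgroup has more than `q` cosets over its meet with `O`
and every element outside `O` moves at least a `q`-th part of `V`: those outside `O` are exchanged for
ones inside `O`.
-/

set_option autoImplicit false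
set_option linter.style.haveILetI false

open Cfsg
open scoped Pointwise commutatorElement

namespace CfsgLib.PushingUp44

open CfsgLib.CentrallyLarge

variable {P : Type*} [Group P] [Finite P]

/-- `q` bounds from above the cosets over `O` and from below the part of `V` moved outside `O`. -/
structure ExchData (O V : Subgroup P) (q : ℕ) : Prop where
  normal : V.Normal
  le : V ≤ O
  cent : V ≤ cen O
  index_le : ∀ X : Subgroup P, O.relIndex X ≤ q
  le_index : ∀ a : P, a ∉ O → q ≤ (V ⊓ Subgroup.centralizer ({a} : Set P)).relIndex V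

theorem card_mul_relIndex_le_sup (A B : Subgroup P) :
    Nat.card A * A.relIndex B ≤ Nat.card ↥(A ⊔ B) := by
  have h1 := card_mul_le_sup A B
  have h2 : Nat.card ↥(A ⊓ B) * A.relIndex B = Nat.card B := by
    rw [← Subgroup.inf_relIndex_right A B, ← Subgroup.relIndex_bot_left, Subgroup.relIndex_mul_relIndex _ _ _ bot_le inf_le_right,
      Subgroup.relIndex_bot_left]
  rw [← h2] at h1
  exact Nat.le_of_mul_le_mul_right (le_trans (le_of_eq (by ring)) h1) (Nat.card_pos (α := ↥(A ⊓ B)))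

omit [Finite P] in
theorem card_inf_mul_relIndex (O A : Subgroup P) :
    Nat.card ↥(A ⊓ O) * O.relIndex A = Nat.card A := by
  rw [← Subgroup.inf_relIndex_right O A, inf_comm O A, ← Subgroup.relIndex_bot_left,
    Subgroup.relIndex_mul_relIndex _ _ _ bot_le inf_le_left, Subgroup.relIndex_bot_left]

theorem le_relIndex_of_inf_le {V A : Subgroup P} {a : P} {q : ℕ}
    (hq : q ≤ (V ⊓ Subgroup.centralizer ({a} : Set P)).relIndex V)
    (hle : A ⊓ V ≤ Subgroup.centralizer ({a} : Set P)) : q ≤ A.relIndex V := by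
  refine hq.trans (Nat.le_of_dvd (Nat.pos_of_ne_zero Subgroup.index_ne_zero_of_finite) ?_)
  rw [← Subgroup.inf_relIndex_right A V]
  exact Subgroup.relIndex_dvd_of_le_left _ (le_inf inf_le_right hle)

omit [Finite P] in
theorem le_centralizer_singleton_of_mem_cen {Q : Subgroup P} {a : P} (ha : a ∈ cen Q) :
    Q ≤ Subgroup.centralizer ({a} : Set P) := fun x hx =>
  Subgroup.mem_centralizer_singleton_iff.2 (ha x hx)

omit [Finite P] in
theorem cen_le_centralizer_singleton {Q : Subgroup P} {a : P} (ha : a ∈ Q) :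
    cen Q ≤ Subgroup.centralizer ({a} : Set P) := fun _ hx =>
  Subgroup.mem_centralizer_singleton_iff.2 (hx a ha).symm

variable {O V : Subgroup P} {q : ℕ}

/-- A minimal centrally large subgroup outside `O` is the product of its part in `O` and its centre. -/
theorem exch_inf_sup_cen (h : ExchData O V q) {Q : Subgroup P} (hQ : IsMinimalCentrallyLarge Q)
    (hQO : ¬ Q ≤ O) : (Q ⊓ O) ⊔ cen Q = Q := by
  haveI := h.normal
  obtain ⟨hQ1, hQ2⟩ := isCentrallyLarge_iff.mp hQ.1
  obtain ⟨a, haQ, haO⟩ := SetLike.not_le_iff_exists.1 hQO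
  set X := Q ⊓ O with hX
  have hc1 : cen Q ⊔ V ≤ cen X := sup_le (Subgroup.centralizer_le inf_le_left)
    (h.cent.trans (Subgroup.centralizer_le inf_le_right))
  have hv : q ≤ (cen Q).relIndex V :=
    le_relIndex_of_inf_le (h.le_index a haO) (inf_le_left.trans (cen_le_centralizer_singleton haQ))
  have hM : Nat.card Q * Nat.card (cen Q) ≤ Nat.card X * Nat.card ↥(cen Q ⊔ V) := by
    calc Nat.card Q * Nat.card (cen Q) = Nat.card X * O.relIndex Q * Nat.card (cen Q) := by
          rw [hX, card_inf_mul_relIndex]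
      _ ≤ Nat.card X * q * Nat.card (cen Q) :=
          Nat.mul_le_mul_right _ (Nat.mul_le_mul_left _ (h.index_le Q))
      _ ≤ Nat.card X * (Nat.card (cen Q) * (cen Q).relIndex V) := by
          rw [mul_assoc, mul_comm q]
          exact Nat.mul_le_mul_left _ (Nat.mul_le_mul_left _ hv)
      _ ≤ _ := Nat.mul_le_mul_left _ (card_mul_relIndex_le_sup _ _)
  have hX1 : IsCentralizerLarge X := by
    refine isCentralizerLarge_of_le ?_
    rw [← show Nat.card Q * Nat.card (cen Q) = maxCentralizerProduct P from hQ1]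
    exact hM.trans (Nat.mul_le_mul_left _ (Subgroup.card_le_of_le hc1))
  have hcX : cen X = cen Q ⊔ V := by
    refine (Subgroup.eq_of_le_of_card_ge hc1 ?_).symm
    refine Nat.le_of_mul_le_mul_left ?_ (Nat.card_pos (α := X))
    rw [show Nat.card X * Nat.card (cen X) = maxCentralizerProduct P from hX1,
      ← show Nat.card Q * Nat.card (cen Q) = maxCentralizerProduct P from hQ1]
    exact hM
  refine hQ.2 _ (sup_le inf_le_left hQ2) (isCentrallyLarge_iff.mpr
    ⟨(lattice hX1 (isCentralizerLarge_cen hQ1)).1, ?_⟩)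
  rw [cen_sup, cen_cen_eq hQ1, hcX]
  intro c hc
  obtain ⟨hc1', hc2⟩ := hc
  have hc3 : c ∈ ((cen Q : Set P) * (V : Set P)) := by rw [← Subgroup.mul_normal]; exact hc1'
  obtain ⟨z, hz, v, hv', rfl⟩ := hc3
  refine mul_mem (Subgroup.mem_sup_right hz) (Subgroup.mem_sup_left ⟨?_, h.le hv'⟩)
  have hzv : z⁻¹ * (z * v) ∈ Q := mul_mem (inv_mem (hQ2 hz)) hc2
  rwa [inv_mul_cancel_left] at hzv

variable {p : ℕ} [hp : Fact p.Prime]

/-- A minimal centrally large subgroup outside `O` gives one inside `O`. -/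
theorem exch (hP : IsPGroup p P) (h : ExchData O V q) {Q : Subgroup P}
    (hQ : IsMinimalCentrallyLarge Q) (hQO : ¬ Q ≤ O) :
    IsMinimalCentrallyLarge ((Q ⊓ O) ⊔ V) ∧ (cen Q ⊓ O) ⊔ V ≤ cen ((Q ⊓ O) ⊔ V) ∧
      ∃ a ∈ cen Q, a ∉ O := by
  haveI := h.normal
  obtain ⟨hQ1, hQ2⟩ := isCentrallyLarge_iff.mp hQ.1
  have hQeq := exch_inf_sup_cen h hQ hQO
  obtain ⟨a, haQ, haO⟩ : ∃ a ∈ cen Q, a ∉ O := by
    apply SetLike.not_le_iff_exists.1
    exact fun hle => hQO (hQeq.ge.trans (sup_le inf_le_right hle))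
  have hQa : Q ≤ Subgroup.centralizer ({a} : Set P) := le_centralizer_singleton_of_mem_cen haQ
  set X := Q ⊓ O with hX
  set Z0 := cen Q ⊓ O with hZ0
  have hZX : Z0 ≤ X := inf_le_inf_right O hQ2
  have hOV : O ≤ cen V := Subgroup.le_centralizer_iff.mp h.cent
  have hc1 : Z0 ⊔ V ≤ cen (X ⊔ V) := by
    rw [cen_sup]
    refine sup_le (le_inf ?_ (inf_le_right.trans hOV)) (le_inf ?_ (h.le.trans hOV))
    · exact inf_le_left.trans (Subgroup.centralizer_le inf_le_left)
    · exact h.cent.trans (Subgroup.centralizer_le inf_le_right)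
  have hv1 : q ≤ X.relIndex V :=
    le_relIndex_of_inf_le (h.le_index a haO) ((inf_le_left.trans inf_le_left).trans hQa)
  have hv2 : q ≤ Z0.relIndex V :=
    le_relIndex_of_inf_le (h.le_index a haO) ((inf_le_left.trans (inf_le_left.trans hQ2)).trans hQa)
  have hY : Nat.card Q ≤ Nat.card ↥(X ⊔ V) := by
    calc Nat.card Q = Nat.card X * O.relIndex Q := by rw [hX, card_inf_mul_relIndex]
      _ ≤ Nat.card X * X.relIndex V := Nat.mul_le_mul_left _ ((h.index_le Q).trans hv1)
      _ ≤ _ := card_mul_relIndex_le_sup _ _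
  have hZ : Nat.card (cen Q) ≤ Nat.card ↥(Z0 ⊔ V) := by
    calc Nat.card (cen Q) = Nat.card Z0 * O.relIndex (cen Q) := by rw [hZ0, card_inf_mul_relIndex]
      _ ≤ Nat.card Z0 * Z0.relIndex V := Nat.mul_le_mul_left _ ((h.index_le _).trans hv2)
      _ ≤ _ := card_mul_relIndex_le_sup _ _
  have hM : Nat.card Q * Nat.card (cen Q) = maxCentralizerProduct P := hQ1
  have hle := le_maxCentralizerProduct (X ⊔ V)
  have hY1 : IsCentralizerLarge (X ⊔ V) := isCentralizerLarge_of_le
    (hM ▸ Nat.mul_le_mul hY (hZ.trans (Subgroup.card_le_of_le hc1)))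
  have hYeq : Nat.card ↥(X ⊔ V) = Nat.card Q := by
    refine le_antisymm (Nat.le_of_mul_le_mul_right ?_ (Nat.card_pos (α := cen Q))) hY
    exact (Nat.mul_le_mul_left _ (hZ.trans (Subgroup.card_le_of_le hc1))).trans (hle.trans hM.ge)
  have hceq : cen (X ⊔ V) = Z0 ⊔ V := by
    refine (Subgroup.eq_of_le_of_card_ge hc1 (Nat.le_of_mul_le_mul_left ?_ (Nat.card_pos (α := Q)))).symm
    calc Nat.card Q * Nat.card (cen (X ⊔ V)) = maxCentralizerProduct P := by rw [← hYeq]; exact hY1
      _ = Nat.card Q * Nat.card (cen Q) := hM.symm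
      _ ≤ _ := Nat.mul_le_mul_left _ hZ
  have hYcl : IsCentrallyLarge (X ⊔ V) :=
    isCentrallyLarge_iff.mpr ⟨hY1, hceq ▸ sup_le_sup_right hZX V⟩
  obtain ⟨R, hRY, hR⟩ := exists_minimal_le hYcl
  have hRc : Nat.card Q = Nat.card R := (Cfsg.Agent.S3007.result P hP Q R hQ hR).2.2.1
  rw [Subgroup.eq_of_le_of_card_ge hRY (hRc ▸ hYeq.le)] at hR
  exact ⟨hR, hc1, a, haQ, haO⟩

/-! ### `Ω₁` of the centre -/

omit [Finite P] in
theorem mem_omegaOneCenter {p : ℕ} {Q : Subgroup P} {x : P} :
    x ∈ omegaOneCenter p Q ↔ x ∈ Q ⊓ cen Q ∧ x ^ p = 1 := by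
  constructor
  · intro hx
    let Ω : Subgroup P :=
      { carrier := {x | x ∈ Q ⊓ cen Q ∧ x ^ p = 1}
        one_mem' := ⟨one_mem _, one_pow _⟩
        mul_mem' := fun {a b} ha hb => ⟨mul_mem ha.1 hb.1, by
          have hab : Commute a b := hb.1.2 a ha.1.1
          rw [hab.mul_pow, ha.2, hb.2, one_mul]⟩
        inv_mem' := fun {a} ha => ⟨inv_mem ha.1, by rw [inv_pow, ha.2, inv_one]⟩ }
    exact (show omegaOneCenter p Q ≤ Ω from (Subgroup.closure_le _).2 fun x hx => hx) hx
  · exact fun hx => Subgroup.subset_closure hx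

/-- A minimal centrally large subgroup outside `O` with `Ω₁` of its centre of largest order gives one
inside `O` with the same property and at least its Frattini subgroup. -/
theorem exch_omega (hP : IsPGroup p P) (h : ExchData O V q) {U : Subgroup P} (hUV : U ≤ V)
    (hU : ∀ u ∈ U, u ^ p = 1)
    (hUi : ∀ a : P, a ∉ O → q ≤ (U ⊓ Subgroup.centralizer ({a} : Set P)).relIndex U)
    {Q : Subgroup P} (hQ : IsMinimalCentrallyLarge Q) (hQO : ¬ Q ≤ O)
    (hsel : Nat.card ↥(omegaOneCenter p Q) = maxOmegaCenterOfMinimalCL p P) :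
    ∃ R : Subgroup P, R ≤ O ∧ IsMinimalCentrallyLarge R ∧
      Nat.card ↥(omegaOneCenter p R) = maxOmegaCenterOfMinimalCL p P ∧
      (frattini ↥Q).map Q.subtype ≤ (frattini ↥R).map R.subtype := by
  haveI := h.normal
  obtain ⟨hQ1, hQ2⟩ := isCentrallyLarge_iff.mp hQ.1
  obtain ⟨hY, hc1, a, haQ, haO⟩ := exch hP h hQ hQO
  have hQeq := exch_inf_sup_cen h hQ hQO
  have hQa : Q ≤ Subgroup.centralizer ({a} : Set P) := le_centralizer_singleton_of_mem_cen haQ
  set X := Q ⊓ O with hX
  set Y := X ⊔ V with hYdef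
  set E := omegaOneCenter p Q with hE
  have hEc : E ≤ cen Q := fun x hx => (mem_omegaOneCenter.1 hx).1.2
  have hcY : cen Y ≤ Y := (isCentrallyLarge_iff.mp hY.1).2
  have hsub : (E ⊓ O) ⊔ U ≤ omegaOneCenter p Y := by
    refine sup_le (fun x hx => ?_) (fun x hx => ?_)
    · have hm : x ∈ cen Y := hc1 (Subgroup.mem_sup_left ⟨hEc hx.1, hx.2⟩)
      exact mem_omegaOneCenter.2 ⟨⟨hcY hm, hm⟩, (mem_omegaOneCenter.1 hx.1).2⟩
    · have hm : x ∈ cen Y := hc1 (Subgroup.mem_sup_right (hUV hx))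
      exact mem_omegaOneCenter.2 ⟨⟨hcY hm, hm⟩, hU x hx⟩
  have hu : q ≤ (E ⊓ O).relIndex U := le_relIndex_of_inf_le (hUi a haO)
    ((inf_le_left.trans (inf_le_left.trans (hEc.trans hQ2))).trans hQa)
  have hmax : Nat.card ↥(omegaOneCenter p Y) ≤ maxOmegaCenterOfMinimalCL p P := by
    refine le_csSup ?_ ⟨Y, hY, rfl⟩
    refine ⟨Nat.card P, ?_⟩
    rintro k ⟨R, -, rfl⟩
    exact Subgroup.card_le_card_group _
  have h1 : Nat.card ↥(E ⊓ O) * q ≤ Nat.card E := by
    rw [hE, hsel]
    refine le_trans ?_ (hmax.trans' (Subgroup.card_le_of_le hsub))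
    exact (Nat.mul_le_mul_left _ hu).trans (card_mul_relIndex_le_sup _ _)
  have hqE : q ≤ O.relIndex E := by
    rw [← card_inf_mul_relIndex O E] at h1
    exact Nat.le_of_mul_le_mul_left h1 Nat.card_pos
  have hYsel : Nat.card ↥(omegaOneCenter p Y) = maxOmegaCenterOfMinimalCL p P := by
    refine le_antisymm hmax ?_
    rw [← hsel, ← card_inf_mul_relIndex O E]
    refine le_trans ?_ (Subgroup.card_le_of_le hsub)
    exact (Nat.mul_le_mul_left _ ((h.index_le E).trans hu)).trans (card_mul_relIndex_le_sup _ _)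
  -- `Q = X * E`
  have hEQ : E ≤ Q := hEc.trans hQ2
  have hQXE : X ⊔ E = Q := by
    refine Subgroup.eq_of_le_of_card_ge (sup_le inf_le_left hEQ) ?_
    have h2 : O.relIndex E ≤ X.relIndex E := by
      refine Nat.le_of_dvd (Nat.pos_of_ne_zero Subgroup.index_ne_zero_of_finite) ?_
      rw [← Subgroup.inf_relIndex_right O E, ← Subgroup.inf_relIndex_right X E]
      exact Subgroup.relIndex_dvd_of_le_left _ (le_inf (inf_le_left.trans inf_le_right) inf_le_right)
    calc Nat.card Q = Nat.card X * O.relIndex Q := by rw [hX, card_inf_mul_relIndex]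
      _ ≤ Nat.card X * X.relIndex E :=
          Nat.mul_le_mul_left _ ((h.index_le Q).trans (hqE.trans h2))
      _ ≤ _ := card_mul_relIndex_le_sup _ _
  refine ⟨Y, sup_le inf_le_right h.le, hY, hYsel, ?_⟩
  -- generators of the Frattini subgroup of `Q`
  have hYp : IsPGroup p Y := hP.to_subgroup Y
  have hQp : IsPGroup p Q := hP.to_subgroup Q
  set N := ((frattini ↥Y).map Y.subtype) with hN
  have hXY : X ≤ Y := le_sup_left
  have hcommQ : ⁅Q, Q⁆ ≤ N := by
    rw [← commutator_sup_cen hQeq]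
    refine (Subgroup.commutator_mono hXY hXY).trans ?_
    rw [← Subgroup.map_subtype_commutator]
    exact Subgroup.map_mono (CfsgLib.PGroup.commutator_le_frattini hYp)
  have hpowQ : ∀ x ∈ Q, x ^ p ∈ N := by
    intro x hx
    have hx' : x ∈ ((X : Set P) * (E : Set P)) := by
      rw [← Subgroup.coe_mul_of_left_le_normalizer_right X E (fun y hy => ?_), hQXE]
      · exact hx
      · exact Subgroup.centralizer_le_normalizer _
          (Subgroup.le_centralizer_iff.mp hEc (inf_le_left (b := O) hy))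
    obtain ⟨y, hy, e, he, rfl⟩ := hx'
    have hye : Commute y e := (hEc he) y (inf_le_left (b := O) hy)
    rw [hye.mul_pow, (mem_omegaOneCenter.1 he).2, mul_one]
    exact ⟨(⟨y, hXY hy⟩ : Y) ^ p, CfsgLib.PGroup.pow_prime_mem_frattini hYp _, rfl⟩
  haveI hQN : (N.subgroupOf Q).Normal := by
    refine ⟨fun x hx g => ?_⟩
    have h2 : ⁅(g : P), (x : P)⁆ ∈ N :=
      hcommQ (Subgroup.commutator_mem_commutator g.2 x.2)
    have h3 := mul_mem h2 (show (x : P) ∈ N from hx)
    rw [commutatorElement_def, inv_mul_cancel_right] at h3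
    exact h3
  rw [Subgroup.map_le_iff_le_comap]
  exact CfsgLib.PGroup.frattini_le_of_elementary (N := N.subgroupOf Q)
    (fun x y => hcommQ (Subgroup.commutator_mem_commutator x.2 y.2)) (fun x => hpowQ x x.2)

end CfsgLib.PushingUp44
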